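import Mathlib

/-!
# Average dimension of fixed spaces (Neumann; Isaacs–Keller–Meierfrankenfeld–Moretó), solvable case

`ρ` is an irreducible representation of the finite solvable group `H` on a finite vector space `E`
of dimension at least two over `ZMod p`: the average over `h ∈ H` of the dimension of the fixed space of `ρ h`
is at most half the dimension of `E` (`two_mul_sum_le`).
-/

set_option autoImplicit false
set_option linter.unusedSectionVars false
set_option linter.style.haveILetI false

namespace Cfsg.Agent.H726.PrimAvg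

open Module

section av

variable {k E H : Type*} [Field k] [AddCommGroup E] [Module k E] [Group H]

/-- The vectors fixed by a subgroup. -/
def fixS (ρ : H →* Module.End k E) (K : Subgroup H) : Submodule k E where
  carrier := {v | ∀ x ∈ K, ρ x v = v}
  add_mem' := by
    intro a b ha hb x hx
    rw [map_add, ha x hx, hb x hx]
  zero_mem' := by
    intro x hx
    rw [map_zero]
  smul_mem' := by
    intro c a ha x hx
    rw [map_smul, ha x hx]

theorem mem_fixS (ρ : H →* Module.End k E) (K : Subgroup H) (v : E) :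
    v ∈ fixS ρ K ↔ ∀ x ∈ K, ρ x v = v := Iff.rfl

theorem fixS_anti (ρ : H →* Module.End k E) {K K' : Subgroup H} (h : K ≤ K') : fixS ρ K' ≤ fixS ρ K :=
  fun _ hv x hx => hv x (h hx)

theorem mem_fixS_sup (ρ : H →* Module.End k E) {K K' : Subgroup H} {v : E} (h : v ∈ fixS ρ K)
    (h' : v ∈ fixS ρ K') : v ∈ fixS ρ (K ⊔ K') := by
  let S : Subgroup H :=
    { carrier := {x | ρ x v = v}
      mul_mem' := by
        intro a b ha hb
        change ρ (a * b) v = v
        rw [map_mul, Module.End.mul_apply, hb, ha]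
      one_mem' := by
        change ρ 1 v = v
        rw [map_one, Module.End.one_apply]
      inv_mem' := by
        intro a ha
        change ρ a⁻¹ v = v
        have h1 : ρ a v = v := ha
        conv_lhs => rw [← h1]
        rw [← Module.End.mul_apply, ← map_mul, inv_mul_cancel, map_one, Module.End.one_apply] }
  have hS : K ⊔ K' ≤ S := sup_le (fun x hx => h x hx) (fun x hx => h' x hx)
  exact fun x hx => hS hx

/-- The fixed vectors of an element. -/
def fixE (ρ : H →* Module.End k E) (x : H) : Submodule k E where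
  carrier := {v | ρ x v = v}
  add_mem' := by
    intro a b ha hb
    change ρ x (a + b) = a + b
    rw [map_add, ha, hb]
  zero_mem' := map_zero _
  smul_mem' := by
    intro c a ha
    change ρ x (c • a) = c • a
    rw [map_smul, ha]

theorem mem_fixE (ρ : H →* Module.End k E) (x : H) (v : E) : v ∈ fixE ρ x ↔ ρ x v = v := Iff.rfl

open Classical in
/-- The average of a subgroup. -/
noncomputable def av [Finite H] (ρ : H →* Module.End k E) (K : Subgroup H) : Module.End k E :=
  letI := Fintype.ofFinite K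
  (Nat.card K : k)⁻¹ • ∑ x : K, ρ x

theorem av_apply [Finite H] (ρ : H →* Module.End k E) (K : Subgroup H) [Fintype K] (v : E) :
    av ρ K v = (Nat.card K : k)⁻¹ • ∑ x : K, ρ x v := by
  classical
  unfold av
  rw [LinearMap.smul_apply, LinearMap.sum_apply]
  congr 1
  apply Finset.sum_congr
  · ext x; simp
  · intros; rfl

theorem av_mem [Finite H] (ρ : H →* Module.End k E) (K : Subgroup H) (v : E) : av ρ K v ∈ fixS ρ K := by
  classical
  let _ := Fintype.ofFinite K
  intro y hy
  rw [av_apply, map_smul, map_sum]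
  congr 1
  refine Fintype.sum_equiv (Equiv.mulLeft (⟨y, hy⟩ : K)) _ _ ?_
  intro x
  rw [Equiv.coe_mulLeft, Subgroup.coe_mul, map_mul, Module.End.mul_apply]

theorem av_fix [Finite H] (ρ : H →* Module.End k E) (K : Subgroup H) (hK : (Nat.card K : k) ≠ 0) {v : E}
    (hv : v ∈ fixS ρ K) : av ρ K v = v := by
  classical
  let _ := Fintype.ofFinite K
  rw [av_apply, Finset.sum_congr rfl (fun x _ => hv x.1 x.2), Finset.sum_const, Finset.card_univ,
    ← Nat.card_eq_fintype_card, ← Nat.cast_smul_eq_nsmul k, smul_smul, inv_mul_cancel₀ hK, one_smul]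

/-- Conjugation as a bijection between subgroups. -/
def conjE {K K' : Subgroup H} {g : H} (h : ∀ x, x ∈ K ↔ g * x * g⁻¹ ∈ K') : K ≃ K' where
  toFun x := ⟨g * x * g⁻¹, (h _).1 x.2⟩
  invFun y := ⟨g⁻¹ * y * g, (h _).2 (by
    have h1 : g * (g⁻¹ * (y : H) * g) * g⁻¹ = y := by group
    rw [h1]; exact y.2)⟩
  left_inv x := by
    apply Subtype.ext
    change g⁻¹ * (g * (x : H) * g⁻¹) * g = x
    group
  right_inv y := by
    apply Subtype.ext
    change g * (g⁻¹ * (y : H) * g) * g⁻¹ = y
    group

theorem av_conj [Finite H] (ρ : H →* Module.End k E) (K K' : Subgroup H) (g : H)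
    (h : ∀ x, x ∈ K ↔ g * x * g⁻¹ ∈ K') (v : E) : ρ g (av ρ K v) = av ρ K' (ρ g v) := by
  classical
  let _ := Fintype.ofFinite K
  let _ := Fintype.ofFinite K'
  have hcard : Nat.card K = Nat.card K' := Nat.card_congr (conjE h)
  rw [av_apply, av_apply, map_smul, map_sum, hcard]
  congr 1
  refine Fintype.sum_equiv (conjE h) _ _ ?_
  intro x
  change ρ g (ρ x v) = ρ (g * x * g⁻¹) (ρ g v)
  rw [← Module.End.mul_apply, ← Module.End.mul_apply, ← map_mul, ← map_mul]
  congr 2
  group

/-- `av` commutes with elements commuting with the subgroup. -/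
theorem av_comm [Finite H] (ρ : H →* Module.End k E) (K : Subgroup H) (g : H)
    (h : ∀ x ∈ K, g * x = x * g) (v : E) : ρ g (av ρ K v) = av ρ K (ρ g v) := by
  refine av_conj ρ K K g (fun x => ?_) v
  constructor
  · intro hx
    rw [h x hx, mul_assoc, mul_inv_cancel, mul_one]
    exact hx
  · intro hx
    have h1 := h _ hx
    have h2 : g * x * g⁻¹ = x := by
      have h3 : g * (g * x * g⁻¹) = g * x := by
        rw [h1]; group
      exact mul_left_cancel h3
    rw [← h2]
    exact hx

theorem av_av_comm [Finite H] (ρ : H →* Module.End k E) (K K' : Subgroup H)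
    (h : ∀ x ∈ K, ∀ y ∈ K', x * y = y * x) (v : E) : av ρ K (av ρ K' v) = av ρ K' (av ρ K v) := by
  classical
  let _ := Fintype.ofFinite K
  rw [av_apply ρ K, av_apply ρ K v, map_smul, map_sum]
  congr 1
  refine Finset.sum_congr rfl fun x _ => ?_
  exact av_comm ρ K' x (fun y hy => h x x.2 y hy) v

end av

section blocks

variable {k E ι : Type*} [Field k] [AddCommGroup E] [Module k E] [Fintype ι] [DecidableEq ι]

/-- A complete family of orthogonal projections. -/
structure Blk (e : ι → Module.End k E) : Prop where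
  orth : ∀ i j, i ≠ j → ∀ v, e i (e j v) = 0
  sum : ∀ v, ∑ i, e i v = v

/-- Vectors killed by the projections in `S`. -/
def zs (e : ι → Module.End k E) (S : Finset ι) : Submodule k E where
  carrier := {v | ∀ i ∈ S, e i v = 0}
  add_mem' := by
    intro a b ha hb i hi
    rw [map_add, ha i hi, hb i hi, add_zero]
  zero_mem' := by
    intro i hi
    rw [map_zero]
  smul_mem' := by
    intro c a ha i hi
    rw [map_smul, ha i hi, smul_zero]

/-- The image of a projection. -/
def us (e : ι → Module.End k E) (i : ι) : Submodule k E where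
  carrier := {v | e i v = v}
  add_mem' := by
    intro a b ha hb
    change e i (a + b) = a + b
    rw [map_add, ha, hb]
  zero_mem' := map_zero _
  smul_mem' := by
    intro c a ha
    change e i (c • a) = c • a
    rw [map_smul, ha]

/-- The fixed vectors of an endomorphism. -/
def fx (f : Module.End k E) : Submodule k E where
  carrier := {v | f v = v}
  add_mem' := by
    intro a b ha hb
    change f (a + b) = a + b
    rw [map_add, ha, hb]
  zero_mem' := map_zero _
  smul_mem' := by
    intro c a ha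
    change f (c • a) = c • a
    rw [map_smul, ha]

theorem mem_zs (e : ι → Module.End k E) (S : Finset ι) (v : E) : v ∈ zs e S ↔ ∀ i ∈ S, e i v = 0 := Iff.rfl

theorem mem_us (e : ι → Module.End k E) (i : ι) (v : E) : v ∈ us e i ↔ e i v = v := Iff.rfl

theorem mem_fx (f : Module.End k E) (v : E) : v ∈ fx f ↔ f v = v := Iff.rfl

theorem Blk.idem {e : ι → Module.End k E} (h : Blk e) (i : ι) (v : E) : e i (e i v) = e i v := by
  conv_rhs => rw [← h.sum v, map_sum]
  rw [Finset.sum_eq_single i]
  · intro j _ hj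
    exact h.orth i j (Ne.symm hj) v
  · intro hi
    exact absurd (Finset.mem_univ i) hi

theorem disjoint_us {e : ι → Module.End k E} {S : Finset ι} {i : ι} (X : Submodule k E) (hi : i ∈ S) :
    (X ⊓ zs e S) ⊓ (X ⊓ us e i) = ⊥ := by
  rw [eq_bot_iff]
  rintro v ⟨⟨_, h1⟩, _, h2⟩
  rw [Submodule.mem_bot, ← (mem_us e i v).1 h2, (mem_zs e S v).1 h1 i hi]

theorem Blk.sup_eq {e : ι → Module.End k E} (h : Blk e) {S : Finset ι} {i : ι} (hi : i ∉ S) (X : Submodule k E)
    (hX : ∀ v ∈ X, e i v ∈ X) :
    X ⊓ zs e S = (X ⊓ zs e (insert i S)) ⊔ (X ⊓ us e i) := by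
  apply le_antisymm
  · rintro v ⟨hv, hz⟩
    rw [SetLike.mem_coe, mem_zs] at hz
    refine Submodule.mem_sup.2 ⟨v - e i v, ⟨X.sub_mem hv (hX v hv), ?_⟩, e i v, ⟨hX v hv, h.idem i v⟩,
      sub_add_cancel _ _⟩
    rw [SetLike.mem_coe, mem_zs]
    intro j hj
    rcases Finset.mem_insert.1 hj with rfl | hj
    · rw [map_sub, h.idem, sub_self]
    · have hne : j ≠ i := fun hh => hi (hh ▸ hj)
      rw [map_sub, hz j hj, h.orth j i hne, sub_zero]
  · refine sup_le ?_ ?_
    · rintro v ⟨hv, hz⟩
      exact ⟨hv, fun j hj => hz j (Finset.mem_insert_of_mem hj)⟩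
    · rintro v ⟨hv, hz⟩
      refine ⟨hv, fun j hj => ?_⟩
      have hne : j ≠ i := fun hh => hi (hh ▸ hj)
      rw [← (mem_us e i v).1 hz, h.orth j i hne]

theorem Blk.finrank_eq [FiniteDimensional k E] {e : ι → Module.End k E} (h : Blk e) {S : Finset ι} {i : ι} (hi : i ∉ S) (X : Submodule k E)
    (hX : ∀ v ∈ X, e i v ∈ X) :
    finrank k (X ⊓ zs e S : Submodule k E) =
      finrank k (X ⊓ zs e (insert i S) : Submodule k E) + finrank k (X ⊓ us e i : Submodule k E) := by
  have h1 := Submodule.finrank_sup_add_finrank_inf_eq (X ⊓ zs e (insert i S)) (X ⊓ us e i)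
  rw [disjoint_us X (Finset.mem_insert_self i S), ← h.sup_eq hi X hX, finrank_bot, add_zero] at h1
  exact h1

/-- The part moved by the permutation. -/
theorem Blk.moved [FiniteDimensional k E] {e : ι → Module.End k E} (h : Blk e) (σ : Equiv.Perm ι) (f : Module.End k E)
    (hf : ∀ i v, f (e i v) = e (σ i) (f v)) :
    2 * finrank k (fx f ⊓ zs e (Finset.univ.filter fun i => σ i = i) : Submodule k E) ≤
      finrank k (zs e (Finset.univ.filter fun i => σ i = i)) := by
  classical
  let rep : ι → ι := fun i => (Quotient.mk (Equiv.Perm.SameCycle.setoid σ) i).out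
  have hrep : ∀ i, σ.SameCycle (rep i) i := fun i =>
    Quotient.exact (Quotient.out_eq (Quotient.mk (Equiv.Perm.SameCycle.setoid σ) i))
  have hrep2 : ∀ i j, σ.SameCycle i j → rep i = rep j := by
    intro i j hij
    have : (Quotient.mk (Equiv.Perm.SameCycle.setoid σ) i) = Quotient.mk (Equiv.Perm.SameCycle.setoid σ) j :=
      Quotient.sound hij
    change (Quotient.mk (Equiv.Perm.SameCycle.setoid σ) i).out = (Quotient.mk (Equiv.Perm.SameCycle.setoid σ) j).out
    rw [this]
  set F : Finset ι := Finset.univ.filter fun i => σ i = i with hF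
  -- vanishing propagates along cycles
  have hprop : ∀ v ∈ fx f, ∀ i j, σ.SameCycle i j → e i v = 0 → e j v = 0 := by
    intro v hv i j hij hi
    have h1 : ∀ a, e (σ a) v = 0 ↔ e a v = 0 := by
      intro a
      have h2 := hf a v
      rw [(mem_fx f v).1 hv] at h2
      constructor
      · intro h3
        rw [h3] at h2
        -- `f` is injective on the image
        by_contra h4
        -- iterate
        have h5 : ∀ n : ℕ, e ((σ ^ n) (σ a)) v = 0 := by
          intro n
          induction n with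
          | zero => simpa using h3
          | succ n ih =>
            have h6 := hf ((σ ^ n) (σ a)) v
            rw [ih, map_zero, (mem_fx f v).1 hv] at h6
            rw [pow_succ', Equiv.Perm.mul_apply]
            exact h6.symm
        obtain ⟨n, hn, hn2⟩ := (isOfFinOrder_of_finite σ).exists_pow_eq_one
        have h7 := h5 (n - 1)
        have h8 : (σ ^ (n - 1)) (σ a) = a := by
          rw [← Equiv.Perm.mul_apply, ← pow_succ, Nat.sub_add_cancel hn, hn2, Equiv.Perm.one_apply]
        rw [h8] at h7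
        exact h4 h7
      · intro h3
        rw [← h2, h3, map_zero]
    obtain ⟨n, rfl⟩ := hij
    have h9 : ∀ n : ℤ, ∀ b, e ((σ ^ n) b) v = 0 ↔ e b v = 0 := by
      intro n
      induction n using Int.induction_on with
      | zero => intro b; simp
      | succ n ih =>
        intro b
        rw [zpow_add_one, Equiv.Perm.mul_apply, ih, h1]
      | pred n ih =>
        intro b
        have := h1 (σ⁻¹ b)
        rw [show σ (σ⁻¹ b) = b from σ.apply_symm_apply b] at this
        rw [zpow_sub_one, Equiv.Perm.mul_apply, ih, ← this]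
    exact (h9 n i).2 hi
  -- the two halves
  set T : Finset ι := Finset.univ.filter fun i => rep i = i with hT
  set Tc : Finset ι := Finset.univ.filter fun i => rep i ≠ i with hTc
  have hd1 : (fx f ⊓ zs e F) ⊓ zs e (F ∪ T) = ⊥ := by
    rw [eq_bot_iff]
    rintro v ⟨⟨h1, _⟩, h2⟩
    rw [Submodule.mem_bot, ← h.sum v]
    refine Finset.sum_eq_zero fun i _ => ?_
    refine hprop v h1 (rep i) i (hrep i) ?_
    refine h2 (rep i) (Finset.mem_union_right _ ?_)
    rw [hT, Finset.mem_filter]
    exact ⟨Finset.mem_univ _, hrep2 _ _ (hrep i)⟩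
  have hd2 : (fx f ⊓ zs e F) ⊓ zs e (F ∪ Tc) = ⊥ := by
    rw [eq_bot_iff]
    rintro v ⟨⟨h1, _⟩, h2⟩
    rw [Submodule.mem_bot, ← h.sum v]
    refine Finset.sum_eq_zero fun i _ => ?_
    by_cases hi : σ i = i
    · exact h2 i (Finset.mem_union_left _ (by rw [hF, Finset.mem_filter]; exact ⟨Finset.mem_univ _, hi⟩))
    · by_cases hr : rep i = i
      · have h3 : σ.SameCycle (σ i) i := ⟨-1, by simp⟩
        refine hprop v h1 (σ i) i h3 (h2 (σ i) (Finset.mem_union_right _ ?_))
        rw [hTc, Finset.mem_filter]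
        refine ⟨Finset.mem_univ _, fun h4 => hi ?_⟩
        rw [← h4, hrep2 _ _ h3, hr]
      · exact h2 i (Finset.mem_union_right _ (by rw [hTc, Finset.mem_filter]; exact ⟨Finset.mem_univ _, hr⟩))
  have hle : ∀ S, zs e (F ∪ S) ≤ zs e F := fun S v hv i hi => hv i (Finset.mem_union_left _ hi)
  have hsup : zs e F ≤ zs e (F ∪ T) ⊔ zs e (F ∪ Tc) := by
    intro v hv
    refine Submodule.mem_sup.2 ⟨∑ i ∈ Finset.univ.filter (fun i => ¬ rep i = i), e i v, ?_,
      ∑ i ∈ Finset.univ.filter (fun i => rep i = i), e i v, ?_, ?_⟩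
    · intro j hj
      rw [map_sum]
      refine Finset.sum_eq_zero fun i hi => ?_
      by_cases hij : j = i
      · subst hij
        rcases Finset.mem_union.1 hj with hj | hj
        · rw [h.idem]; exact hv j hj
        · rw [hT, Finset.mem_filter] at hj
          rw [Finset.mem_filter] at hi
          exact absurd hj.2 hi.2
      · exact h.orth j i hij v
    · intro j hj
      rw [map_sum]
      refine Finset.sum_eq_zero fun i hi => ?_
      by_cases hij : j = i
      · subst hij
        rcases Finset.mem_union.1 hj with hj | hj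
        · rw [h.idem]; exact hv j hj
        · rw [hTc, Finset.mem_filter] at hj
          rw [Finset.mem_filter] at hi
          exact absurd hi.2 hj.2
      · exact h.orth j i hij v
    · rw [add_comm, Finset.sum_filter_add_sum_filter_not]
      exact h.sum v
  have e1 := Submodule.finrank_sup_add_finrank_inf_eq (fx f ⊓ zs e F) (zs e (F ∪ T))
  have e2 := Submodule.finrank_sup_add_finrank_inf_eq (fx f ⊓ zs e F) (zs e (F ∪ Tc))
  rw [hd1, finrank_bot, add_zero] at e1
  rw [hd2, finrank_bot, add_zero] at e2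
  have e3 := Submodule.finrank_mono (sup_le (inf_le_right : fx f ⊓ zs e F ≤ zs e F) (hle T))
  have e4 := Submodule.finrank_mono (sup_le (inf_le_right : fx f ⊓ zs e F ≤ zs e F) (hle Tc))
  have e5 := Submodule.finrank_mono hsup
  have e6 := Submodule.finrank_add_le_finrank_add_finrank (zs e (F ∪ T)) (zs e (F ∪ Tc))
  omega

/-- **Counting.** -/
theorem Blk.count [FiniteDimensional k E] {e : ι → Module.End k E} (h : Blk e) (σ : Equiv.Perm ι) {μ : Type*} [Fintype μ]
    (f : μ → Module.End k E) (hf : ∀ m i v, f m (e i v) = e (σ i) (f m v))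
    (hp : ∀ i, σ i = i →
      2 * ∑ m, finrank k (fx (f m) ⊓ us e i : Submodule k E) ≤ Fintype.card μ * finrank k (us e i)) :
    2 * ∑ m, finrank k (fx (f m)) ≤ Fintype.card μ * finrank k E := by
  classical
  set F : Finset ι := Finset.univ.filter fun i => σ i = i with hF
  have hX : ∀ m, ∀ i ∈ F, ∀ v ∈ fx (f m), e i v ∈ fx (f m) := by
    intro m i hi v hv
    rw [hF, Finset.mem_filter] at hi
    rw [mem_fx, hf, hi.2, (mem_fx _ v).1 hv]
  have key : ∀ S : Finset ι, S ⊆ F →
      2 * ∑ m, finrank k (fx (f m) ⊓ zs e S : Submodule k E) ≤ Fintype.card μ * finrank k (zs e S) →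
      2 * ∑ m, finrank k (fx (f m) ⊓ zs e ∅ : Submodule k E) ≤ Fintype.card μ * finrank k (zs e ∅) := by
    intro S
    induction S using Finset.induction_on with
    | empty => intro _ h1; exact h1
    | insert i S hi ih =>
      intro hSF h1
      apply ih (fun j hj => hSF (Finset.mem_insert_of_mem hj))
      have hiF : i ∈ F := hSF (Finset.mem_insert_self i S)
      have h2 : ∀ m, finrank k (fx (f m) ⊓ zs e S : Submodule k E) =
          finrank k (fx (f m) ⊓ zs e (insert i S) : Submodule k E) +
          finrank k (fx (f m) ⊓ us e i : Submodule k E) := fun m => h.finrank_eq hi _ (hX m i hiF)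
      have h3 : finrank k (zs e S) = finrank k (zs e (insert i S)) + finrank k (us e i) := by
        have := h.finrank_eq hi ⊤ (fun v _ => Submodule.mem_top)
        rwa [top_inf_eq, top_inf_eq, top_inf_eq] at this
      rw [Finset.sum_congr rfl (fun m _ => h2 m), Finset.sum_add_distrib, h3, mul_add, mul_add]
      have hiF2 : σ i = i := by
        rw [hF, Finset.mem_filter] at hiF
        exact hiF.2
      exact add_le_add h1 (hp i hiF2)
  have htop : zs e ∅ = ⊤ := by
    rw [eq_top_iff]
    intro v _ i hi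
    exact absurd hi (Finset.notMem_empty i)
  have h4 := key F (Finset.Subset.refl F) (by
    rw [Finset.mul_sum, ← Finset.card_univ, ← smul_eq_mul (Finset.univ.card), ← Finset.sum_const]
    exact Finset.sum_le_sum fun m _ => h.moved σ (f m) (hf m))
  rw [htop, finrank_top] at h4
  rwa [Finset.sum_congr rfl (fun m _ => by rw [inf_top_eq])] at h4

end blocks

section main

variable {k E H : Type*} [Field k] [AddCommGroup E] [Module k E] [Group H] [Finite H]

/-- Subgroups of `M` maximal with non-zero fixed vectors. -/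
def IsMx (ρ : H →* Module.End k E) (M K : Subgroup H) : Prop :=
  K ≤ M ∧ fixS ρ K ≠ ⊥ ∧ ∀ K' ≤ M, K < K' → fixS ρ K' = ⊥

theorem IsMx.inf_eq {ρ : H →* Module.End k E} {M K K' : Subgroup H} (h : IsMx ρ M K) (h' : IsMx ρ M K')
    (hne : K ≠ K') {v : E} (hv : v ∈ fixS ρ K) (hv' : v ∈ fixS ρ K') : v = 0 := by
  have h1 : fixS ρ (K ⊔ K') = ⊥ := by
    by_cases hlt : K < K ⊔ K'
    · exact h.2.2 _ (sup_le h.1 h'.1) hlt
    · have h2 : K ⊔ K' = K := (le_antisymm le_sup_left (not_lt_iff_le_imp_ge.1 hlt le_sup_left)).symm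
      have h3 : K' ≤ K := by rw [← h2]; exact le_sup_right
      have h4 : K' < K := lt_of_le_of_ne h3 (Ne.symm hne)
      have h5 := h'.2.2 K h.1 h4
      exact absurd h5 h.2.1
  have h6 := mem_fixS_sup ρ hv hv'
  rw [h1] at h6
  exact (Submodule.mem_bot k).1 h6

theorem IsMx.conj {ρ : H →* Module.End k E} {M K : Subgroup H} [hM : M.Normal] (h : IsMx ρ M K) (g : H) :
    IsMx ρ M (K.map (MulAut.conj g).toMonoidHom) := by
  have hfix : ∀ (x : H) (L : Subgroup H), (∃ v ∈ fixS ρ L, v ≠ 0) →
      ∃ v ∈ fixS ρ (L.map (MulAut.conj x).toMonoidHom), v ≠ 0 := by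
    rintro x L ⟨v, hv, hv0⟩
    refine ⟨ρ x v, ?_, ?_⟩
    · rintro y ⟨z, hz, rfl⟩
      change ρ (x * z * x⁻¹) (ρ x v) = ρ x v
      rw [← Module.End.mul_apply, ← map_mul, mul_assoc (x * z), inv_mul_cancel, mul_one, map_mul,
        Module.End.mul_apply, hv z hz]
    · intro h0
      apply hv0
      have : ρ x⁻¹ (ρ x v) = v := by
        rw [← Module.End.mul_apply, ← map_mul, inv_mul_cancel, map_one, Module.End.one_apply]
      rw [← this, h0, map_zero]
  have hne : ∀ L : Subgroup H, fixS ρ L ≠ ⊥ ↔ ∃ v ∈ fixS ρ L, v ≠ 0 := fun L => Submodule.ne_bot_iff _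
  refine ⟨?_, ?_, ?_⟩
  · rintro _ ⟨z, hz, rfl⟩
    exact hM.conj_mem z (h.1 hz) g
  · rw [hne]
    exact hfix g K ((hne K).1 h.2.1)
  · intro K' hK' hlt
    by_contra hcon
    have h1 := hfix g⁻¹ K' ((hne K').1 hcon)
    rw [← hne] at h1
    apply h1
    apply h.2.2
    · rintro _ ⟨z, hz, rfl⟩
      exact hM.conj_mem z (hK' hz) g⁻¹
    · have h2 : K = (K.map (MulAut.conj g).toMonoidHom).map (MulAut.conj g⁻¹).toMonoidHom := by
        rw [Subgroup.map_map]
        conv_lhs => rw [← Subgroup.map_id K]
        congr 1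
        ext x
        simp [mul_assoc]
      rw [h2]
      exact (Subgroup.map_lt_map_iff_of_injective (MulAut.conj g⁻¹).injective).2 hlt

/-- The permutation of the maximal subgroups induced by conjugation. -/
def permMx (ρ : H →* Module.End k E) (M : Subgroup H) [M.Normal] (g : H) :
    Equiv.Perm {K : Subgroup H // IsMx ρ M K} where
  toFun K := ⟨K.1.map (MulAut.conj g).toMonoidHom, K.2.conj g⟩
  invFun K := ⟨K.1.map (MulAut.conj g⁻¹).toMonoidHom, K.2.conj g⁻¹⟩
  left_inv K := by
    apply Subtype.ext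
    change (K.1.map (MulAut.conj g).toMonoidHom).map (MulAut.conj g⁻¹).toMonoidHom = K.1
    rw [Subgroup.map_map]
    conv_rhs => rw [← Subgroup.map_id K.1]
    congr 1
    ext x
    simp [mul_assoc]
  right_inv K := by
    apply Subtype.ext
    change (K.1.map (MulAut.conj g⁻¹).toMonoidHom).map (MulAut.conj g).toMonoidHom = K.1
    rw [Subgroup.map_map]
    conv_rhs => rw [← Subgroup.map_id K.1]
    congr 1
    ext x
    simp [mul_assoc]

theorem permMx_apply (ρ : H →* Module.End k E) (M : Subgroup H) [M.Normal] (g : H)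
    (K : {K : Subgroup H // IsMx ρ M K}) : (permMx ρ M g K).1 = K.1.map (MulAut.conj g).toMonoidHom := rfl

theorem av_perm (ρ : H →* Module.End k E) (M : Subgroup H) [M.Normal] (g : H)
    (K : {K : Subgroup H // IsMx ρ M K}) (v : E) :
    ρ g (av ρ K.1 v) = av ρ (permMx ρ M g K).1 (ρ g v) := by
  refine av_conj ρ _ _ g (fun x => ?_) v
  rw [permMx_apply]
  constructor
  · intro hx
    exact ⟨x, hx, rfl⟩
  · rintro ⟨y, hy, hyx⟩
    have h1 : g * y * g⁻¹ = g * x * g⁻¹ := hyx
    have h2 : y = x := by
      have h3 := mul_right_cancel h1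
      exact mul_left_cancel h3
    rw [← h2]
    exact hy

theorem blk (ρ : H →* Module.End k E) (M : Subgroup H) [M.Normal] (hcomm : ∀ a ∈ M, ∀ b ∈ M, a * b = b * a)
    (hM : (Nat.card M : k) ≠ 0)
    (hirr : ∀ W : Submodule k E, (∀ g, ∀ v ∈ W, ρ g v ∈ W) → W = ⊥ ∨ W = ⊤) [Nontrivial E]
    [Fintype {K : Subgroup H // IsMx ρ M K}] :
    Blk (fun K : {K : Subgroup H // IsMx ρ M K} => av ρ K.1) := by
  classical
  have hKc : ∀ K : {K : Subgroup H // IsMx ρ M K}, (Nat.card K.1 : k) ≠ 0 := by
    intro K h0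
    apply hM
    obtain ⟨c, hc⟩ := Subgroup.card_dvd_of_le K.2.1
    rw [hc, Nat.cast_mul, h0, zero_mul]
  have horth : ∀ K K' : {K : Subgroup H // IsMx ρ M K}, K ≠ K' → ∀ v, av ρ K.1 (av ρ K'.1 v) = 0 := by
    intro K K' hne v
    refine K.2.inf_eq K'.2 (fun h => hne (Subtype.ext h)) (av_mem ρ K.1 _) ?_
    rw [av_av_comm ρ K.1 K'.1 (fun x hx y hy => hcomm x (K.2.1 hx) y (K'.2.1 hy))]
    exact av_mem ρ K'.1 _
  refine ⟨horth, ?_⟩
  let W : Submodule k E :=
    { carrier := {v | ∑ K : {K : Subgroup H // IsMx ρ M K}, av ρ K.1 v = v}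
      add_mem' := by
        intro a b ha hb
        have ha' : ∑ K : {K : Subgroup H // IsMx ρ M K}, av ρ K.1 a = a := ha
        have hb' : ∑ K : {K : Subgroup H // IsMx ρ M K}, av ρ K.1 b = b := hb
        change ∑ K : {K : Subgroup H // IsMx ρ M K}, av ρ K.1 (a + b) = a + b
        rw [Finset.sum_congr rfl (fun K _ => map_add _ a b), Finset.sum_add_distrib, ha', hb']
      zero_mem' := by
        change ∑ K : {K : Subgroup H // IsMx ρ M K}, av ρ K.1 0 = 0
        exact Finset.sum_eq_zero fun K _ => map_zero _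
      smul_mem' := by
        intro c a ha
        have ha' : ∑ K : {K : Subgroup H // IsMx ρ M K}, av ρ K.1 a = a := ha
        change ∑ K : {K : Subgroup H // IsMx ρ M K}, av ρ K.1 (c • a) = c • a
        rw [Finset.sum_congr rfl (fun K _ => map_smul _ c a), ← Finset.smul_sum, ha'] }
  have hWinv : ∀ g, ∀ v ∈ W, ρ g v ∈ W := by
    intro g v hv
    have hv' : ∑ K : {K : Subgroup H // IsMx ρ M K}, av ρ K.1 v = v := hv
    change ∑ K : {K : Subgroup H // IsMx ρ M K}, av ρ K.1 (ρ g v) = ρ g v
    conv_rhs => rw [← hv', map_sum]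
    symm
    refine Fintype.sum_equiv (permMx ρ M g) _ _ ?_
    intro K
    exact av_perm ρ M g K v
  have hWtop : W = ⊤ := by
    refine (hirr W hWinv).resolve_left ?_
    -- a maximal subgroup exists
    have hne : ({K : Subgroup H | K ≤ M ∧ fixS ρ K ≠ ⊥} : Set (Subgroup H)).Nonempty := by
      refine ⟨⊥, bot_le, ?_⟩
      rw [Submodule.ne_bot_iff]
      obtain ⟨v, hv⟩ := exists_ne (0 : E)
      refine ⟨v, ?_, hv⟩
      intro x hx
      rw [Subgroup.mem_bot.1 hx, map_one, Module.End.one_apply]
    obtain ⟨K, hK⟩ := (Set.toFinite {K : Subgroup H | K ≤ M ∧ fixS ρ K ≠ ⊥}).exists_maximal hne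
    have hKm : IsMx ρ M K := by
      refine ⟨hK.prop.1, hK.prop.2, fun K' hK' hlt => ?_⟩
      by_contra hcon
      exact not_le_of_gt hlt (hK.le_of_ge ⟨hK', hcon⟩ hlt.le)
    obtain ⟨v, hv, hv0⟩ := (Submodule.ne_bot_iff _).1 hKm.2.1
    refine (Submodule.ne_bot_iff _).2 ⟨v, ?_, hv0⟩
    change ∑ K : {K : Subgroup H // IsMx ρ M K}, av ρ K.1 v = v
    have hKv : av ρ K v = v := av_fix ρ K (hKc ⟨K, hKm⟩) hv
    rw [Finset.sum_eq_single (⟨K, hKm⟩ : {K : Subgroup H // IsMx ρ M K})]
    · exact hKv
    · intro K' _ hne'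
      rw [← hKv]
      exact horth K' ⟨K, hKm⟩ hne' v
    · intro h
      exact absurd (Finset.mem_univ _) h
  intro v
  have : v ∈ W := by rw [hWtop]; exact Submodule.mem_top
  exact this

/-- **The average over a coset of an abelian normal subgroup.** -/
theorem coset_avg (ρ : H →* Module.End k E) (M : Subgroup H) [hMn : M.Normal]
    (hcomm : ∀ a ∈ M, ∀ b ∈ M, a * b = b * a) (hM : (Nat.card M : k) ≠ 0)
    (hirr : ∀ W : Submodule k E, (∀ g, ∀ v ∈ W, ρ g v ∈ W) → W = ⊥ ∨ W = ⊤)
    (hfix : fixS ρ M = ⊥) [Nontrivial E] [FiniteDimensional k E] [Fintype M] (g : H) :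
    2 * ∑ m : M, finrank k (fx (ρ (g * m))) ≤ Fintype.card M * finrank k E := by
  classical
  let _ := Fintype.ofFinite {K : Subgroup H // IsMx ρ M K}
  have hB := blk ρ M hcomm hM hirr
  refine hB.count (permMx ρ M g) (fun m : M => ρ (g * m)) ?_ ?_
  · intro m K v
    refine av_conj ρ _ _ (g * m) (fun x => ?_) v
    rw [permMx_apply]
    constructor
    · intro hx
      refine ⟨x, hx, ?_⟩
      change g * x * g⁻¹ = g * m * x * (g * m)⁻¹
      have h1 := hcomm m m.2 x (K.2.1 hx)
      rw [mul_inv_rev, mul_assoc g (m : H) x, h1]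
      group
    · rintro ⟨y, hy, hyx⟩
      have h1 : g * y * g⁻¹ = g * m * x * (g * m)⁻¹ := hyx
      have h2 : y = (m : H) * x * (m : H)⁻¹ := by
        have h3 : g * y * g⁻¹ = g * ((m : H) * x * (m : H)⁻¹) * g⁻¹ := by rw [h1]; group
        exact mul_left_cancel (mul_right_cancel h3)
      have h4 : x = (m : H)⁻¹ * y * m := by rw [h2]; group
      have h5 := hcomm m m.2 y (K.2.1 hy)
      have h6 : x = y := by rw [h4, mul_assoc, ← h5, inv_mul_cancel_left]
      rw [h6]
      exact hy
  · intro K _
    have hKM : K.1 ≠ M := by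
      intro h
      apply K.2.2.1
      rw [h, hfix]
    obtain ⟨m0, hm0, hm0K⟩ := SetLike.exists_of_lt (lt_of_le_of_ne K.2.1 hKM)
    have husK : ∀ v ∈ us (fun K : {K : Subgroup H // IsMx ρ M K} => av ρ K.1) K, v ∈ fixS ρ K.1 := by
      intro v hv
      rw [← (mem_us _ K v).1 hv]
      exact av_mem ρ K.1 v
    have hpair : ∀ m : M, finrank k (fx (ρ (g * m)) ⊓
          us (fun K : {K : Subgroup H // IsMx ρ M K} => av ρ K.1) K : Submodule k E) +
        finrank k (fx (ρ (g * (m * ⟨m0, hm0⟩ : M))) ⊓
          us (fun K : {K : Subgroup H // IsMx ρ M K} => av ρ K.1) K : Submodule k E) ≤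
        finrank k (us (fun K : {K : Subgroup H // IsMx ρ M K} => av ρ K.1) K) := by
      intro m
      have h1 : (fx (ρ (g * m)) ⊓ us (fun K : {K : Subgroup H // IsMx ρ M K} => av ρ K.1) K) ⊓
          (fx (ρ (g * (m * ⟨m0, hm0⟩ : M))) ⊓
            us (fun K : {K : Subgroup H // IsMx ρ M K} => av ρ K.1) K) = ⊥ := by
        rw [eq_bot_iff]
        rintro v ⟨⟨hv1, hv2⟩, hv3, -⟩
        have h2 : ρ (g * m) v = v := hv1
        have h3 : ρ (g * (m * m0)) v = v := hv3
        have h4 : ρ m0 v = v := by
          rw [← mul_assoc, map_mul ρ (g * m), Module.End.mul_apply] at h3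
          have h5 : ρ (g * m) (ρ m0 v) = ρ (g * m) v := by rw [h3, h2]
          have h6 := congrArg (ρ (g * m)⁻¹) h5
          rw [← Module.End.mul_apply, ← Module.End.mul_apply (ρ (g * m)⁻¹) (ρ (g * m)) v, ← map_mul,
            inv_mul_cancel, map_one] at h6
          exact h6
        have h7 : v ∈ fixS ρ (Subgroup.zpowers m0) := by
          intro x hx
          have h8 : Subgroup.zpowers m0 ≤
              ({ carrier := {x | ρ x v = v}
                 mul_mem' := by
                  intro a b ha hb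
                  change ρ (a * b) v = v
                  rw [map_mul, Module.End.mul_apply, hb, ha]
                 one_mem' := by
                  change ρ 1 v = v
                  rw [map_one, Module.End.one_apply]
                 inv_mem' := by
                  intro a ha
                  change ρ a⁻¹ v = v
                  have h1 : ρ a v = v := ha
                  conv_lhs => rw [← h1]
                  rw [← Module.End.mul_apply, ← map_mul, inv_mul_cancel, map_one,
                    Module.End.one_apply] } : Subgroup H) := by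
            rw [Subgroup.zpowers_le]
            exact h4
          exact h8 hx
        have h9 := mem_fixS_sup ρ (husK v hv2) h7
        have h10 : K.1 < K.1 ⊔ Subgroup.zpowers m0 := by
          refine lt_of_le_of_ne le_sup_left fun h => hm0K ?_
          rw [h]
          exact (le_sup_right : Subgroup.zpowers m0 ≤ _) (Subgroup.mem_zpowers m0)
        have h11 : K.1 ⊔ Subgroup.zpowers m0 ≤ M := sup_le K.2.1 (by rw [Subgroup.zpowers_le]; exact hm0)
        rw [K.2.2.2 _ h11 h10] at h9
        exact h9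
      have e1 := Submodule.finrank_sup_add_finrank_inf_eq
        (fx (ρ (g * m)) ⊓ us (fun K : {K : Subgroup H // IsMx ρ M K} => av ρ K.1) K)
        (fx (ρ (g * (m * ⟨m0, hm0⟩ : M))) ⊓ us (fun K : {K : Subgroup H // IsMx ρ M K} => av ρ K.1) K)
      rw [h1, finrank_bot, add_zero] at e1
      rw [← e1]
      exact Submodule.finrank_mono (sup_le inf_le_right inf_le_right)
    have hsum := Finset.sum_le_sum (fun m (_ : m ∈ (Finset.univ : Finset M)) => hpair m)
    rw [Finset.sum_add_distrib] at hsum
    have hre : ∑ m : M, finrank k (fx (ρ (g * (m * ⟨m0, hm0⟩ : M))) ⊓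
          us (fun K : {K : Subgroup H // IsMx ρ M K} => av ρ K.1) K : Submodule k E) =
        ∑ m : M, finrank k (fx (ρ (g * m)) ⊓
          us (fun K : {K : Subgroup H // IsMx ρ M K} => av ρ K.1) K : Submodule k E) :=
      Fintype.sum_equiv (Equiv.mulRight (⟨m0, hm0⟩ : M)) _ _ (fun m => rfl)
    rw [hre, Finset.sum_const, Finset.card_univ, smul_eq_mul] at hsum
    rw [two_mul]
    exact hsum

end main

section final

variable {E H : Type*} [AddCommGroup E] [Group H] [Finite H] {p : ℕ} [hp : Fact p.Prime]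
  [Module (ZMod p) E] [Finite E]

theorem fixS_normal_inv {k : Type*} [Field k] [Module k E] (ρ : H →* Module.End k E) (M : Subgroup H)
    [hMn : M.Normal] : ∀ g, ∀ v ∈ fixS ρ M, ρ g v ∈ fixS ρ M := by
  intro g v hv x hx
  have h1 : g⁻¹ * x * g ∈ M := by
    have := hMn.conj_mem x hx g⁻¹
    rwa [inv_inv] at this
  rw [← Module.End.mul_apply, ← map_mul]
  have h2 : x * g = g * (g⁻¹ * x * g) := by group
  rw [h2, map_mul, Module.End.mul_apply, hv _ h1]

/-- A normal `p`-subgroup acts trivially on an irreducible module of characteristic `p`. -/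
theorem fixS_eq_top (ρ : H →* Module.End (ZMod p) E) [Nontrivial E]
    (hirr : ∀ W : Submodule (ZMod p) E, (∀ g, ∀ v ∈ W, ρ g v ∈ W) → W = ⊥ ∨ W = ⊤)
    (P : Subgroup H) [P.Normal] (hP : IsPGroup p P) : fixS ρ P = ⊤ := by
  refine (hirr _ (fixS_normal_inv ρ P)).resolve_left ?_
  let _ : MulAction P E :=
    { smul := fun x v => ρ x v
      one_smul := fun v => by
        change ρ 1 v = v
        rw [map_one, Module.End.one_apply]
      mul_smul := fun x y v => by
        change ρ (x * y : P) v = ρ x (ρ y v)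
        rw [Subgroup.coe_mul, map_mul, Module.End.mul_apply] }
  have hsm : ∀ (x : P) (v : E), x • v = ρ x v := fun _ _ => rfl
  have hdvd : p ∣ Nat.card E := by
    obtain ⟨v, hv⟩ := exists_ne (0 : E)
    have h1 : addOrderOf v = p := by
      refine addOrderOf_eq_prime ?_ hv
      rw [← Nat.cast_smul_eq_nsmul (ZMod p), CharP.cast_eq_zero, zero_smul]
    rw [← h1]
    exact addOrderOf_dvd_natCard v
  have h0 : (0 : E) ∈ MulAction.fixedPoints P E := fun x => by rw [hsm, map_zero]
  obtain ⟨b, hb, hb0⟩ := hP.exists_fixed_point_of_prime_dvd_card_of_fixed_point E hdvd h0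
  refine (Submodule.ne_bot_iff _).2 ⟨b, fun x hx => ?_, fun h => hb0 h.symm⟩
  exact hb ⟨x, hx⟩

theorem avg_faithful (ρ : H →* Module.End (ZMod p) E) [Nontrivial E] [Fintype H]
    (hirr : ∀ W : Submodule (ZMod p) E, (∀ g, ∀ v ∈ W, ρ g v ∈ W) → W = ⊥ ∨ W = ⊤)
    (hinj : ∀ x, ρ x = 1 → x = 1) (hs : Group.IsSolvable H) [Nontrivial H] :
    2 * ∑ h : H, finrank (ZMod p) (fx (ρ h)) ≤ Fintype.card H * finrank (ZMod p) E := by
  classical
  -- an abelian normal subgroup
  obtain ⟨M, hMn, hM1, hMc⟩ : ∃ M : Subgroup H, M.Normal ∧ M ≠ ⊥ ∧ ∀ a ∈ M, ∀ b ∈ M, a * b = b * a := by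
    have hex : ∃ n, derivedSeries H n = ⊥ := hs.solvable
    have hn := Nat.find_spec hex
    have hn0 : Nat.find hex ≠ 0 := by
      intro h0
      rw [h0, derivedSeries_zero] at hn
      exact top_ne_bot hn
    obtain ⟨n, hn1⟩ := Nat.exists_eq_succ_of_ne_zero hn0
    refine ⟨derivedSeries H n, inferInstance, Nat.find_min hex (by omega), ?_⟩
    intro a ha b hb
    rw [hn1, derivedSeries_succ] at hn
    have h1 := Subgroup.commutator_mem_commutator ha hb
    rw [hn, Subgroup.mem_bot, commutatorElement_eq_one_iff_mul_comm] at h1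
    exact h1
  -- its order is prime to `p`
  have hMp : ¬ p ∣ Nat.card M := by
    intro hdvd
    let P : Subgroup H :=
      { carrier := {x | x ∈ M ∧ x ^ p = 1}
        mul_mem' := by
          rintro a b ⟨ha, ha'⟩ ⟨hb, hb'⟩
          refine ⟨M.mul_mem ha hb, ?_⟩
          rw [(show Commute a b from hMc a ha b hb).mul_pow, ha', hb', one_mul]
        one_mem' := ⟨M.one_mem, one_pow _⟩
        inv_mem' := by
          rintro a ⟨ha, ha'⟩
          exact ⟨M.inv_mem ha, by rw [inv_pow, ha', inv_one]⟩ }
    have hPn : P.Normal := by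
      refine ⟨fun x hx g => ⟨hMn.conj_mem x hx.1 g, ?_⟩⟩
      rw [conj_pow, hx.2, mul_one, mul_inv_cancel]
    have hPp : IsPGroup p P := by
      intro x
      refine ⟨1, ?_⟩
      rw [pow_one]
      exact Subtype.ext x.2.2
    have h1 := fixS_eq_top ρ hirr P hPp
    obtain ⟨x, hx⟩ := exists_prime_orderOf_dvd_card' (G := M) p hdvd
    have hxP : (x : H) ∈ P := by
      refine ⟨x.2, ?_⟩
      have := pow_orderOf_eq_one x
      rw [hx] at this
      exact congrArg Subtype.val this
    have h2 : ρ x = 1 := by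
      ext v
      have : v ∈ fixS ρ P := by rw [h1]; exact Submodule.mem_top
      exact this x hxP
    have h3 := hinj _ h2
    have h4 : x = 1 := Subtype.ext h3
    rw [h4, orderOf_one] at hx
    exact hp.out.one_lt.ne hx
  have hMk : (Nat.card M : ZMod p) ≠ 0 := by
    rw [Ne, ZMod.natCast_eq_zero_iff]
    exact hMp
  have hfix : fixS ρ M = ⊥ := by
    refine (hirr _ (fixS_normal_inv ρ M)).resolve_right ?_
    intro htop
    apply hM1
    rw [eq_bot_iff]
    intro x hx
    rw [Subgroup.mem_bot]
    apply hinj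
    ext v
    have : v ∈ fixS ρ M := by rw [htop]; exact Submodule.mem_top
    exact this x hx
  let _ : Fintype M := Fintype.ofFinite M
  have key := fun g : H => coset_avg ρ M hMc hMk hirr hfix g
  have hsum := Finset.sum_le_sum (fun g (_ : g ∈ (Finset.univ : Finset H)) => key g)
  rw [Finset.sum_const, Finset.card_univ, smul_eq_mul, ← Finset.mul_sum, Finset.sum_comm] at hsum
  have h1 : ∀ m : M, ∑ g : H, finrank (ZMod p) (fx (ρ (g * m))) = ∑ h : H, finrank (ZMod p) (fx (ρ h)) :=
    fun m => Fintype.sum_equiv (Equiv.mulRight (m : H)) _ _ (fun g => rfl)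
  rw [Finset.sum_congr rfl (fun m _ => h1 m), Finset.sum_const, Finset.card_univ, smul_eq_mul] at hsum
  have hpos : 0 < Fintype.card M := Fintype.card_pos
  have h2 : Fintype.card M * (2 * ∑ h : H, finrank (ZMod p) (fx (ρ h))) ≤
      Fintype.card M * (Fintype.card H * finrank (ZMod p) E) := by
    calc Fintype.card M * (2 * ∑ h : H, finrank (ZMod p) (fx (ρ h))) =
        2 * (Fintype.card M * ∑ h : H, finrank (ZMod p) (fx (ρ h))) := by ring
      _ ≤ Fintype.card H * (Fintype.card M * finrank (ZMod p) E) := hsum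
      _ = _ := by ring
  exact Nat.le_of_mul_le_mul_left h2 hpos

/-- **Average dimension of fixed spaces** (solvable groups, irreducible modules of dimension at least two). -/
theorem two_mul_sum_le (ρ : H →* Module.End (ZMod p) E) [Fintype H]
    (hirr : ∀ W : Submodule (ZMod p) E, (∀ g, ∀ v ∈ W, ρ g v ∈ W) → W = ⊥ ∨ W = ⊤)
    (hdim : 1 < finrank (ZMod p) E) (hs : Group.IsSolvable H) :
    2 * ∑ h : H, finrank (ZMod p) (fx (ρ h)) ≤ Fintype.card H * finrank (ZMod p) E := by
  classical
  have hnt : Nontrivial E := by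
    have : 0 < finrank (ZMod p) E := by omega
    exact Module.nontrivial_of_finrank_pos this
  let N : Subgroup H := ρ.ker
  let ρ' : H ⧸ N →* Module.End (ZMod p) E := QuotientGroup.lift N ρ (fun x hx => hx)
  have hρ' : ∀ x : H, ρ' (x : H ⧸ N) = ρ x := fun x => rfl
  have hinj : ∀ x, ρ' x = 1 → x = 1 := by
    intro x
    induction x using QuotientGroup.induction_on with
    | H z =>
      intro hz
      rw [hρ'] at hz
      exact (QuotientGroup.eq_one_iff z).2 hz
  have hirr' : ∀ W : Submodule (ZMod p) E, (∀ g, ∀ v ∈ W, ρ' g v ∈ W) → W = ⊥ ∨ W = ⊤ :=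
    fun W hW => hirr W fun g v hv => hW (g : H ⧸ N) v hv
  have hntH : Nontrivial (H ⧸ N) := by
    by_contra hcon
    rw [not_nontrivial_iff_subsingleton] at hcon
    have htriv : ∀ g : H, ρ g = 1 := by
      intro g
      rw [← hρ' g, Subsingleton.elim (g : H ⧸ N) 1, map_one]
    obtain ⟨v, hv⟩ := exists_ne (0 : E)
    rcases hirr (Submodule.span (ZMod p) {v}) (fun g w hw => by rw [htriv g]; exact hw) with h | h
    · rw [Submodule.span_singleton_eq_bot] at h
      exact hv h
    · have h1 := finrank_span_singleton (K := ZMod p) hv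
      rw [h, finrank_top] at h1
      omega
  have hs' : Group.IsSolvable (H ⧸ N) := inferInstance
  let _ : Fintype (H ⧸ N) := Fintype.ofFinite _
  let _ : Fintype N := Fintype.ofFinite _
  have key := avg_faithful ρ' hirr' hinj hs'
  have h1 : ∑ h : H, finrank (ZMod p) (fx (ρ h)) =
      Fintype.card N * ∑ q : H ⧸ N, finrank (ZMod p) (fx (ρ' q)) := by
    rw [Fintype.sum_equiv (Subgroup.groupEquivQuotientProdSubgroup (s := N))
      (fun h => finrank (ZMod p) (fx (ρ h))) (fun q => finrank (ZMod p) (fx (ρ' q.1))) ?_]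
    · rw [Fintype.sum_prod_type, Finset.mul_sum]
      refine Finset.sum_congr rfl fun q _ => ?_
      change ∑ _y : N, finrank (ZMod p) (fx (ρ' q)) = _
      rw [Finset.sum_const, Finset.card_univ, smul_eq_mul]
    · intro h
      have h2 : ((Subgroup.groupEquivQuotientProdSubgroup (s := N)) h).1 = (h : H ⧸ N) := rfl
      rw [h2, hρ']
  have h3 : Fintype.card H = Fintype.card N * Fintype.card (H ⧸ N) := by
    rw [Fintype.card_congr (Subgroup.groupEquivQuotientProdSubgroup (s := N)), Fintype.card_prod, mul_comm]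
  rw [h1, h3]
  calc 2 * (Fintype.card N * ∑ q : H ⧸ N, finrank (ZMod p) (fx (ρ' q))) =
      Fintype.card N * (2 * ∑ q : H ⧸ N, finrank (ZMod p) (fx (ρ' q))) := by ring
    _ ≤ Fintype.card N * (Fintype.card (H ⧸ N) * finrank (ZMod p) E) := Nat.mul_le_mul_left _ key
    _ = _ := by ring

end final

end Cfsg.Agent.H726.PrimAvg
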