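import Mathlib
import Cfsg.Prelude.Def_Blocks
import Cfsg.Agent.S0854
import Cfsg.Agent.S0174
import Cfsg.Agent.H726.PrimChief

/-!
# Primitive characters of solvable groups

`homog_of_prim` : a primitive character has homogeneous restrictions to normal subgroups;
`main` : `G` solvable, `χ` primitive, `p` prime: `v_p (χ 1) ≤ v_p |G : C_G(g)|` for some `g`.
-/

set_option autoImplicit false
set_option linter.unusedSectionVars false

namespace Cfsg.Agent.H726.PrimMain

open Cfsg Module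
open Cfsg.Agent.Characters.Core Cfsg.Agent.Characters.Clifford Cfsg.Agent.H726.PrimChief

variable {G : Type*} [Group G] [Fintype G]

/-- Restrictions of primitive characters to normal subgroups are homogeneous. -/
theorem homog_of_prim {χ : G → ℂ} (hχ : IsIrrCharacter G χ)
    (hprim : ¬ ∃ (H : Subgroup G), H ≠ ⊤ ∧ ∃ θ : ↥H → ℂ, IsCharacter ↥H θ ∧ indFun H θ = χ)
    (N : Subgroup G) (hN : N.Normal) :
    ∃ (θ : N → ℂ) (e : ℕ), IsIrrCharacter N θ ∧ (fun n : N => χ n) = (e : ℂ) • θ := by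
  classical
  let _ : Fintype N := Fintype.ofFinite _
  have hcN := isCharacter_restrict N (isIrr_isCharacter hχ)
  -- a constituent
  obtain ⟨θ, hθ, hne⟩ : ∃ θ : N → ℂ, IsIrrCharacter N θ ∧ classInner (fun n : N => χ n) θ ≠ 0 := by
    by_contra hcon
    push Not at hcon
    have h1 := classFunction_eq_zero (isCharacter_isClassFunction hcN) hcon
    have h2 := congrFun h1 1
    exact isIrr_apply_one_ne_zero hχ h2
  let T : Subgroup G :=
    { carrier := {g | ∀ n : N, θ ⟨g * n * g⁻¹, hN.conj_mem (n : G) n.2 g⟩ = θ n}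
      mul_mem' := by
        intro a b ha hb n
        have h1 := ha ⟨b * n * b⁻¹, hN.conj_mem (n : G) n.2 b⟩
        rw [hb n] at h1
        rw [← h1]
        congr 1
        apply Subtype.ext
        change a * b * (n : G) * (a * b)⁻¹ = a * (b * n * b⁻¹) * a⁻¹
        group
      one_mem' := by
        intro n
        congr 1
        apply Subtype.ext
        change 1 * (n : G) * 1⁻¹ = n
        group
      inv_mem' := by
        intro a ha n
        have h1 := ha ⟨a⁻¹ * n * a⁻¹⁻¹, hN.conj_mem (n : G) n.2 a⁻¹⟩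
        rw [← h1]
        congr 1
        apply Subtype.ext
        change a * (a⁻¹ * (n : G) * a⁻¹⁻¹) * a⁻¹ = n
        group }
  have hT : ∀ g : G, g ∈ T ↔ ∀ n : N, θ ⟨g * n * g⁻¹, hN.conj_mem (n : G) n.2 g⟩ = θ n := fun g => Iff.rfl
  have hNT : N ≤ T := by
    intro g hg
    rw [hT]
    intro n
    exact (isIrr_isClassFunction hθ) n ⟨g, hg⟩
  have htop : T = ⊤ := by
    by_contra hTne
    let _ : Fintype T := Fintype.ofFinite _
    obtain ⟨ψ, hψ, hind, -⟩ := S0854.result N θ hθ T hT hNT χ hχ hne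
    exact hprim ⟨T, hTne, ψ, isIrr_isCharacter hψ, hind⟩
  have hinv : ∀ g : G, (fun n : N => θ ⟨g * n * g⁻¹, hN.conj_mem n n.2 g⟩) = θ := by
    intro g
    have h1 : g ∈ T := by rw [htop]; exact Subgroup.mem_top g
    funext n
    exact (hT g).1 h1 n
  have hcl := S0174.result N hN χ hχ θ hθ hne
  have hset : {ψ : N → ℂ | ∃ g : G, ψ = fun n : N => θ ⟨g * n * g⁻¹, hN.conj_mem n n.2 g⟩} = {θ} := by
    ext ψ
    rw [Set.mem_singleton_iff]
    constructor
    · rintro ⟨g, rfl⟩
      exact hinv g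
    · rintro rfl
      exact ⟨1, (hinv 1).symm⟩
  rw [hset, finsum_mem_singleton] at hcl
  obtain ⟨e, he⟩ := classInner_isNat hcN (isIrr_isCharacter hθ)
  rw [he] at hcl
  exact ⟨θ, e, hθ, hcl⟩

theorem charDegree_eq {χ : G → ℂ} {d : ℕ} (h : χ 1 = d) : charDegree χ = d := by
  unfold charDegree
  rw [h]
  simp

/-- The class function `F` for the whole group. -/
theorem exists_top (hs : Group.IsSolvable G) (p : ℕ) [hp : Fact p.Prime] {χ : G → ℂ}
    (hχ : IsIrrCharacter G χ)
    (hprim : ¬ ∃ (H : Subgroup G), H ≠ ⊤ ∧ ∃ θ : ↥H → ℂ, IsCharacter ↥H θ ∧ indFun H θ = χ)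
    (K : Subgroup G) (hK : ∀ U V : Subgroup G, V < U → U.Normal → V.Normal →
      (∀ M : Subgroup G, M.Normal → V ≤ M → M ≤ U → M = V ∨ M = U) → (∀ u ∈ U, u ^ p ∈ V) →
      ∀ x ∈ K, ∀ u ∈ U, x * u * x⁻¹ * u⁻¹ ∈ V) :
    ∃ F : G → ℕ,
      (∀ g, F g ≤ ((Subgroup.centralizer ({g} : Set G)).index).factorization p) ∧
      Fintype.card G * (charDegree χ).factorization p ≤ ∑ g, F g ∧
      ∀ g, ∀ x ∈ K, F (g * x) = F g := by
  have hχtop : IsIrrCharacter (⊤ : Subgroup G) (fun n : (⊤ : Subgroup G) => χ n) :=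
    isIrr_comp ((Subgroup.topEquiv : (⊤ : Subgroup G) ≃* G) : (⊤ : Subgroup G) →* G)
      Subgroup.topEquiv.surjective hχ
  obtain ⟨F, h1, h2, h3⟩ := exists_fun hs p χ hχ (fun N hN => homog_of_prim hχ hprim N hN) K hK _ ⊤
    inferInstance rfl (fun n : (⊤ : Subgroup G) => χ n) 1 hχtop (by rw [Nat.cast_one, one_smul])
  obtain ⟨d, hd, hd'⟩ := isIrr_apply_one hχ
  refine ⟨F, fun g => ?_, ?_, h3⟩
  · have h4 := h1 g
    have h5 : cN (⊤ : Subgroup G) g = Subgroup.centralizer {g} := by unfold cN; exact top_inf_eq _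
    rw [h5, Subgroup.card_top] at h4
    have h6 := Subgroup.card_mul_index (Subgroup.centralizer ({g} : Set G))
    rw [← h6, Nat.factorization_mul Nat.card_pos.ne' Subgroup.index_ne_zero_of_finite, Finsupp.add_apply] at h4
    omega
  · rw [charDegree_eq hd']
    exact h2 d hd'

/-- **Main theorem.** -/
theorem main (hs : Group.IsSolvable G) (p : ℕ) [hp : Fact p.Prime] {χ : G → ℂ}
    (hχ : IsIrrCharacter G χ)
    (hprim : ¬ ∃ (H : Subgroup G), H ≠ ⊤ ∧ ∃ θ : ↥H → ℂ, IsCharacter ↥H θ ∧ indFun H θ = χ) :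
    ∃ g : G, (charDegree χ).factorization p ≤
      ((Subgroup.centralizer ({g} : Set G)).index).factorization p := by
  classical
  obtain ⟨F, h1, h2, -⟩ := exists_top hs p hχ hprim ⊥ (by
    intro U V _ _ _ _ _ x hx u _
    rw [Subgroup.mem_bot.1 hx]
    simp)
  by_contra hcon
  push Not at hcon
  have h3 : ∑ g : G, F g < ∑ _g : G, (charDegree χ).factorization p :=
    Finset.sum_lt_sum_of_nonempty Finset.univ_nonempty (fun g _ => lt_of_le_of_lt (h1 g) (hcon g))
  rw [Finset.sum_const, Finset.card_univ, smul_eq_mul] at h3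
  exact absurd h2 (not_le_of_gt h3)

end Cfsg.Agent.H726.PrimMain
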