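import Mathlib
import Cfsg.Prelude.Def_Solvable
import Cfsg.Agent.Blocks.Knorr
import Cfsg.Agent.S0583
import Cfsg.Agent.H726.PrimMain

/-!
# Primitive characters of metanilpotent groups with two prime divisors

`main` : the degree of a primitive character of a metanilpotent `{p, q}`-group divides a class size.
-/

set_option autoImplicit false
set_option linter.unusedSectionVars false

namespace Cfsg.Agent.H726.PrimTwo

open Cfsg Module
open Cfsg.Agent.Characters.Core Cfsg.Agent.Characters.Clifford Cfsg.Agent.H726.PrimChief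
  Cfsg.Agent.H726.PrimAvg Cfsg.Agent.H726.PrimMain
open scoped commutatorElement

variable {G : Type*} [Group G] [Fintype G]

/-- The Fitting subgroup centralizes the chief factors. -/
theorem fitting_comm (U V : Subgroup G) (hVU : V < U) (hU : U.Normal) (hV : V.Normal)
    (hch : ∀ M : Subgroup G, M.Normal → V ≤ M → M ≤ U → M = V ∨ M = U) {x u : G}
    (hx : x ∈ fittingSubgroup G) (hu : u ∈ U) : x * u * x⁻¹ * u⁻¹ ∈ V := by
  have hUn : (U.map (QuotientGroup.mk' V)).Normal := hU.map _ (QuotientGroup.mk'_surjective V)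
  have hne : U.map (QuotientGroup.mk' V) ≠ ⊥ := by
    intro h
    rw [Subgroup.map_eq_bot_iff, QuotientGroup.ker_mk'] at h
    exact absurd h (not_le_of_gt hVU)
  have hmin : ∀ K : Subgroup (G ⧸ V), K.Normal → K ≤ U.map (QuotientGroup.mk' V) →
      K = ⊥ ∨ K = U.map (QuotientGroup.mk' V) := by
    intro K hK hKU
    have h1 : V ≤ K.comap (QuotientGroup.mk' V) := by
      intro v hv
      rw [Subgroup.mem_comap]
      have : (QuotientGroup.mk' V) v = 1 := (QuotientGroup.eq_one_iff _).2 hv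
      rw [this]
      exact K.one_mem
    have h2 : K.comap (QuotientGroup.mk' V) ≤ U := by
      intro v hv
      obtain ⟨w, hw, hwv⟩ := hKU hv
      have h3 : w⁻¹ * v ∈ V := QuotientGroup.eq.1 hwv
      have : v = w * (w⁻¹ * v) := by group
      rw [this]
      exact U.mul_mem hw (hVU.le h3)
    rcases hch _ (hK.comap _) h1 h2 with h3 | h3
    · left
      have h4 := congrArg (Subgroup.map (QuotientGroup.mk' V)) h3
      rw [Subgroup.map_comap_eq_self_of_surjective (QuotientGroup.mk'_surjective V)] at h4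
      rw [h4, Subgroup.map_eq_bot_iff, QuotientGroup.ker_mk']
    · right
      have h4 := congrArg (Subgroup.map (QuotientGroup.mk' V)) h3
      rwa [Subgroup.map_comap_eq_self_of_surjective (QuotientGroup.mk'_surjective V)] at h4
  have h5 := S0583.result (U.map (QuotientGroup.mk' V)) hne hmin
  -- the image of the Fitting subgroup
  have h6 : (fittingSubgroup G).map (QuotientGroup.mk' V) ≤ fittingSubgroup (G ⧸ V) := by
    unfold fittingSubgroup
    rw [sSup_eq_iSup', Subgroup.map_iSup]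
    refine iSup_le fun N => ?_
    refine le_sSup ⟨N.2.1.map _ (QuotientGroup.mk'_surjective V), ?_⟩
    have := N.2.2
    exact Group.nilpotent_of_surjective ((QuotientGroup.mk' V).subgroupMap N.1)
      ((QuotientGroup.mk' V).subgroupMap_surjective N.1)
  have h7 := h5 (h6 ⟨x, hx, rfl⟩)
  rw [Subgroup.mem_centralizer_iff] at h7
  have h8 := h7 _ ⟨u, hu, rfl⟩
  have h9 : (QuotientGroup.mk' V) (x * u * x⁻¹ * u⁻¹) = 1 := by
    rw [map_mul, map_mul, map_mul, map_inv, map_inv, ← h8]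
    group
  exact (QuotientGroup.eq_one_iff _).1 h9

/-- The part of `G` over the Sylow `p`-subgroup of `G / F(G)` centralizes the `p`-chief factors. -/
theorem sylow_comm (hs : Group.IsSolvable G) (p : ℕ) [hp : Fact p.Prime] [hF : (fittingSubgroup G).Normal]
    (P : Subgroup (G ⧸ fittingSubgroup G)) [hPn : P.Normal] (hP : IsPGroup p P)
    (U V : Subgroup G) (hVU : V < U) (hU : U.Normal) (hV : V.Normal)
    (hch : ∀ M : Subgroup G, M.Normal → V ≤ M → M ≤ U → M = V ∨ M = U) (hexp : ∀ u ∈ U, u ^ p ∈ V) {x u : G}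
    (hx : x ∈ P.comap (QuotientGroup.mk' (fittingSubgroup G))) (hu : u ∈ U) : x * u * x⁻¹ * u⁻¹ ∈ V := by
  classical
  have hab := comm_le hs U V hVU hch
  obtain ⟨E, i1, i2, π, h1, h2, h3, h4⟩ :=
    OddOrderCharacters.PF9.SectionModule.exists_module p U V
      (fun h _ k hk => hV.conj_mem k hk h)
      (fun a ha b hb => hab (Subgroup.commutator_mem_commutator ha hb)) hexp
  obtain ⟨ρ, hρ⟩ := OddOrderCharacters.PF9.SectionModule.exists_rep_normal (p := p) h1 h2 h3 hU hV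
  have hfinE : Finite E := Finite.of_surjective π h1
  have hirr : ∀ W : Submodule (ZMod p) E, (∀ g, ∀ v ∈ W, ρ g v ∈ W) → W = ⊥ ∨ W = ⊤ := by
    intro W hW
    obtain ⟨M, hMN, hM⟩ := OddOrderCharacters.PF9.SectionModule.exists_subgroup h2 W
    have hMn : M.Normal := by
      refine ⟨fun x hx g => ?_⟩
      have hxN : x ∈ U := hMN hx
      have h5 : π ⟨x, hxN⟩ ∈ W := (hM ⟨x, hxN⟩).1 hx
      have h6 := hW g _ h5
      rw [hρ] at h6
      exact (hM _).2 h6
    have hLM : V ≤ M := by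
      intro x hx
      have hxN : x ∈ U := hVU.le hx
      refine (hM ⟨x, hxN⟩).2 ?_
      rw [(h3 ⟨x, hxN⟩).2 hx]
      exact W.zero_mem
    rcases hch M hMn hLM hMN with h5 | h5
    · left
      rw [eq_bot_iff]
      intro w hw
      obtain ⟨a, rfl⟩ := h1 w
      have h6 : (a : G) ∈ M := (hM a).2 hw
      rw [h5] at h6
      rw [Submodule.mem_bot]
      exact (h3 a).2 h6
    · right
      rw [eq_top_iff]
      intro w _
      obtain ⟨a, rfl⟩ := h1 w
      refine (hM a).1 ?_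
      rw [h5]
      exact a.2
  have hnt : Nontrivial E := by
    obtain ⟨a, ha, ha'⟩ := SetLike.exists_of_lt hVU
    exact ⟨⟨π ⟨a, ha⟩, 0, fun h => ha' ((h3 ⟨a, ha⟩).1 h)⟩⟩
  have hact : ∀ x : G, (∀ u ∈ U, x * u * x⁻¹ * u⁻¹ ∈ V) ↔ ρ x = 1 := by
    intro x
    constructor
    · intro h
      ext w
      obtain ⟨a, rfl⟩ := h1 w
      rw [hρ, Module.End.one_apply, OddOrderCharacters.PF9.SectionModule.pi_eq_iff h2 h3]
      have h6 := h a a.2
      have h7 : (x * a * x⁻¹)⁻¹ * a = (a : G)⁻¹ * (x * a * x⁻¹ * (a : G)⁻¹)⁻¹ * a := by group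
      change (x * a * x⁻¹)⁻¹ * a ∈ V
      rw [h7]
      have := hV.conj_mem _ (V.inv_mem h6) (a : G)⁻¹
      rwa [inv_inv] at this
    · intro h u hu
      have h5 := hρ x ⟨u, hu⟩
      rw [h, Module.End.one_apply, OddOrderCharacters.PF9.SectionModule.pi_eq_iff h2 h3] at h5
      change u⁻¹ * (x * u * x⁻¹) ∈ V at h5
      have h6 := hV.conj_mem _ h5 u
      have h7 : u * (u⁻¹ * (x * u * x⁻¹)) * u⁻¹ = x * u * x⁻¹ * u⁻¹ := by group
      rwa [h7] at h6
  let ρ' : G ⧸ fittingSubgroup G →* Module.End (ZMod p) E :=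
    QuotientGroup.lift (fittingSubgroup G) ρ (fun f hf => (hact f).1 fun u hu =>
      fitting_comm U V hVU hU hV hch hf hu)
  have hρ' : ∀ g : G, ρ' (g : G ⧸ fittingSubgroup G) = ρ g := fun g => rfl
  have hirr' : ∀ W : Submodule (ZMod p) E, (∀ g, ∀ v ∈ W, ρ' g v ∈ W) → W = ⊥ ∨ W = ⊤ :=
    fun W hW => hirr W fun g v hv => hW (g : G ⧸ fittingSubgroup G) v hv
  have htop := fixS_eq_top ρ' hirr' P hP
  refine (hact x).2 ?_ u hu
  ext w
  have : w ∈ fixS ρ' P := by rw [htop]; exact Submodule.mem_top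
  exact this _ hx

theorem exists_K (hs : Group.IsSolvable G) (p : ℕ) [hp : Fact p.Prime] [hF : (fittingSubgroup G).Normal]
    (hnil : Group.IsNilpotent (G ⧸ fittingSubgroup G)) :
    ∃ K : Subgroup G, K.Normal ∧ ¬ p ∣ K.index ∧ ∀ U V : Subgroup G, V < U → U.Normal → V.Normal →
      (∀ M : Subgroup G, M.Normal → V ≤ M → M ≤ U → M = V ∨ M = U) → (∀ u ∈ U, u ^ p ∈ V) →
      ∀ x ∈ K, ∀ u ∈ U, x * u * x⁻¹ * u⁻¹ ∈ V := by
  classical
  obtain ⟨P⟩ : Nonempty (Sylow p (G ⧸ fittingSubgroup G)) := inferInstance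
  have hPn : (P : Subgroup (G ⧸ fittingSubgroup G)).Normal := by
    have h1 := (Group.isNilpotent_of_finite_tfae (G := G ⧸ fittingSubgroup G)).out 0 3
    exact h1.1 hnil p hp P
  refine ⟨(P : Subgroup (G ⧸ fittingSubgroup G)).comap (QuotientGroup.mk' (fittingSubgroup G)),
    hPn.comap _, ?_, ?_⟩
  · rw [Subgroup.index_comap_of_surjective _ (QuotientGroup.mk'_surjective _)]
    exact P.not_dvd_index
  · intro U V hVU hU hV hch hexp x hx u hu
    exact sylow_comm hs p _ P.isPGroup' U V hVU hU hV hch hexp hx hu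

/-- **Main theorem.** -/
theorem main (p q : ℕ) [hp : Fact p.Prime] [hq : Fact q.Prime]
    (hpq : (Nat.card G).primeFactors ⊆ {p, q}) [hF : (fittingSubgroup G).Normal]
    (hs : Group.IsSolvable G) (hnil : Group.IsNilpotent (G ⧸ fittingSubgroup G)) {χ : G → ℂ}
    (hχ : IsIrrCharacter G χ)
    (hprim : ¬ ∃ (H : Subgroup G), H ≠ ⊤ ∧ ∃ θ : ↥H → ℂ, IsCharacter ↥H θ ∧ indFun H θ = χ) :
    ∃ g : G, charDegree χ ∣ (Subgroup.centralizer ({g} : Set G)).index := by
  classical
  obtain ⟨K₁, hK₁n, hK₁i, hK₁⟩ := exists_K hs p hnil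
  obtain ⟨K₂, hK₂n, hK₂i, hK₂⟩ := exists_K hs q hnil
  obtain ⟨F₁, a1, a2, a3⟩ := exists_top hs p hχ hprim K₁ hK₁
  obtain ⟨F₂, b1, b2, b3⟩ := exists_top hs q hχ hprim K₂ hK₂
  have hex : ∀ (F : G → ℕ) (d : ℕ), Fintype.card G * d ≤ ∑ g, F g → ∃ g, d ≤ F g := by
    intro F d hF'
    by_contra hcon
    push Not at hcon
    have h3 : ∑ g : G, F g < ∑ _g : G, d :=
      Finset.sum_lt_sum_of_nonempty Finset.univ_nonempty (fun g _ => hcon g)
    rw [Finset.sum_const, Finset.card_univ, smul_eq_mul] at h3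
    exact absurd hF' (not_le_of_gt h3)
  obtain ⟨g₁, hg₁⟩ := hex F₁ _ a2
  obtain ⟨g₂, hg₂⟩ := hex F₂ _ b2
  have htop : K₁ ⊔ K₂ = ⊤ := by
    rw [← Subgroup.index_eq_one]
    by_contra hne
    obtain ⟨r, hr, hrd⟩ := Nat.exists_prime_and_dvd hne
    have h1 : r ∣ Nat.card G := hrd.trans (Subgroup.index_dvd_card _)
    have h2 : r ∈ (Nat.card G).primeFactors := Nat.mem_primeFactors.2 ⟨hr, h1, Nat.card_pos.ne'⟩
    have h3 := hpq h2
    rw [Finset.mem_insert, Finset.mem_singleton] at h3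
    rcases h3 with rfl | rfl
    · exact hK₁i (hrd.trans (Subgroup.index_dvd_of_le le_sup_left))
    · exact hK₂i (hrd.trans (Subgroup.index_dvd_of_le le_sup_right))
  obtain ⟨a, ha, b, hb, hab⟩ : ∃ a ∈ K₁, ∃ b ∈ K₂, a * b = g₁⁻¹ * g₂ := by
    have : g₁⁻¹ * g₂ ∈ K₁ ⊔ K₂ := by rw [htop]; exact Subgroup.mem_top _
    rw [← SetLike.mem_coe, Subgroup.mul_normal] at this
    obtain ⟨a, ha, b, hb, hab⟩ := this
    exact ⟨a, ha, b, hb, hab⟩
  have hg : g₁ * a = g₂ * b⁻¹ := by
    have : g₂ = g₁ * (a * b) := by rw [hab]; group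
    rw [this]
    group
  refine ⟨g₁ * a, ?_⟩
  have hdvd := Blocks.Knorr.charDegree_dvd hχ
  have hd0 : charDegree χ ≠ 0 := by
    obtain ⟨d, hd, hd'⟩ := isIrr_apply_one hχ
    rw [charDegree_eq hd']
    exact hd.ne'
  have hi0 : (Subgroup.centralizer ({g₁ * a} : Set G)).index ≠ 0 := Subgroup.index_ne_zero_of_finite
  rw [← Nat.factorization_le_iff_dvd hd0 hi0]
  intro r
  by_cases hr1 : r = p
  · subst hr1
    calc _ ≤ F₁ g₁ := hg₁
      _ = F₁ (g₁ * a) := (a3 g₁ a ha).symm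
      _ ≤ _ := a1 _
  by_cases hr2 : r = q
  · subst hr2
    calc _ ≤ F₂ g₂ := hg₂
      _ = F₂ (g₂ * b⁻¹) := (b3 g₂ b⁻¹ (K₂.inv_mem hb)).symm
      _ = F₂ (g₁ * a) := by rw [hg]
      _ ≤ _ := b1 _
  have hr3 : r ∉ (Nat.card G).primeFactors := by
    intro h
    have := hpq h
    rw [Finset.mem_insert, Finset.mem_singleton] at this
    rcases this with h | h
    · exact hr1 h
    · exact hr2 h
  have h4 : (charDegree χ).factorization r = 0 := by
    have h5 := (Nat.factorization_le_iff_dvd hd0 Nat.card_pos.ne').2 hdvd r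
    have h6 : (Nat.card G).factorization r = 0 := by
      rw [← Nat.support_factorization] at hr3
      exact Finsupp.notMem_support_iff.1 hr3
    omega
  rw [h4]
  exact Nat.zero_le _

end Cfsg.Agent.H726.PrimTwo
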